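import Mathlib

set_option autoImplicit false

namespace CfsgLib.Lead

variable {p : ℕ} [Fact p.Prime] {V : Type*} [AddCommGroup V] [Module (ZMod p) V]

/-- A permutation of an `F_p`-space, `p` odd, preserving the relation `x + y = 2 z` up to doubling is affine. -/
theorem affine_of_midpoint (hp : p ≠ 2) (σ : Equiv.Perm V)
    (h : ∀ x y z : V, x + y = (2 : ZMod p) • z → σ x + σ y = (2 : ZMod p) • σ z) :
    ∃ (A : V ≃ₗ[ZMod p] V) (b : V), ∀ x, σ x = A x + b := by
  classical
  have h2 : (2 : ZMod p) ≠ 0 := by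
    intro h0
    have : ((2 : ℕ) : ZMod p) = 0 := by exact_mod_cast h0
    rw [ZMod.natCast_eq_zero_iff] at this
    have hpr : p.Prime := Fact.out
    exact hp ((Nat.prime_dvd_prime_iff_eq hpr Nat.prime_two).1 this)
  let f : V → V := fun x => σ x - σ 0
  have hf0 : f 0 = 0 := by simp [f]
  have hmid : ∀ x y z : V, x + y = (2 : ZMod p) • z → f x + f y = (2 : ZMod p) • f z := by
    intro x y z hxy
    have := h x y z hxy
    rw [two_smul] at this
    simp only [f]
    rw [two_smul]
    calc σ x - σ 0 + (σ y - σ 0) = (σ x + σ y) - (σ 0 + σ 0) := by abel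
      _ = (σ z + σ z) - (σ 0 + σ 0) := by rw [this]
      _ = σ z - σ 0 + (σ z - σ 0) := by abel
  have hdiv : ∀ x : V, x = (2 : ZMod p) • (((2 : ZMod p)⁻¹) • x) := by
    intro x
    rw [smul_smul, mul_inv_cancel₀ h2, one_smul]
  have hhalf : ∀ x : V, f x = (2 : ZMod p) • f (((2 : ZMod p)⁻¹) • x) := by
    intro x
    have := hmid x 0 (((2 : ZMod p)⁻¹) • x) (by rw [add_zero]; exact hdiv x)
    rwa [hf0, add_zero] at this
  have hadd : ∀ x y : V, f (x + y) = f x + f y := by
    intro x y
    rw [hhalf (x + y)]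
    exact (hmid x y _ (hdiv (x + y))).symm
  let φ : V →+ V := AddMonoidHom.mk' f hadd
  let L : V →ₗ[ZMod p] V := AddMonoidHom.toZModLinearMap p φ
  have hL : ∀ x, L x = σ x - σ 0 := fun x => rfl
  have hbij : Function.Bijective L := by
    constructor
    · intro x y hxy
      rw [hL, hL] at hxy
      exact σ.injective (sub_left_inj.1 hxy)
    · intro y
      obtain ⟨x, hx⟩ := σ.surjective (y + σ 0)
      exact ⟨x, by rw [hL, hx]; abel⟩
  refine ⟨LinearEquiv.ofBijective L hbij, σ 0, fun x => ?_⟩
  show σ x = L x + σ 0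
  rw [hL]; abel

/-- From `t`-approximation by affine maps to midpoint preservation. -/
theorem midpoint_of_approx {Γ : Set (Equiv.Perm V)}
    (haff : Γ ⊆ {τ : Equiv.Perm V | ∃ (A : V ≃ₗ[ZMod p] V) (b : V), ∀ x, τ x = A x + b})
    (σ : Equiv.Perm V) (hσ : ∀ t : Fin 3 → V, ∃ g ∈ Γ, ∀ i, σ (t i) = g (t i)) :
    ∀ x y z : V, x + y = (2 : ZMod p) • z → σ x + σ y = (2 : ZMod p) • σ z := by
  intro x y z hxy
  obtain ⟨g, hg, hgt⟩ := hσ ![x, y, z]
  obtain ⟨A, b, hA⟩ := haff hg
  have h0 := hgt 0
  have h1 := hgt 1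
  have h2 := hgt 2
  simp only [Matrix.cons_val_zero, Matrix.cons_val_one, Matrix.cons_val] at h0 h1 h2
  rw [h0, h1, h2, hA, hA, hA]
  have := congrArg A hxy
  rw [map_add, map_smul] at this
  rw [two_smul] at this ⊢
  calc A x + b + (A y + b) = (A x + A y) + (b + b) := by abel
    _ = (A z + A z) + (b + b) := by rw [this]
    _ = A z + b + (A z + b) := by abel

/-- Extending a linearly independent family to an automorphism. -/
theorem exists_linearEquiv_of_independent {K W ι : Type*} [Field K] [AddCommGroup W] [Module K W]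
    [FiniteDimensional K W] [Finite ι] {u v : ι → W} (hu : LinearIndependent K u) (hv : LinearIndependent K v) :
    ∃ A : W ≃ₗ[K] W, ∀ i, A (u i) = v i := by
  classical
  let bu := Module.Basis.sumExtend hu
  let bv := Module.Basis.sumExtend hv
  haveI : Finite (Module.Basis.sumExtendIndex hu) := by
    haveI : Finite (ι ⊕ Module.Basis.sumExtendIndex hu) := Module.Finite.finite_basis bu
    exact Finite.of_injective (Sum.inr : _ → ι ⊕ _) Sum.inr_injective
  haveI : Finite (Module.Basis.sumExtendIndex hv) := by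
    haveI : Finite (ι ⊕ Module.Basis.sumExtendIndex hv) := Module.Finite.finite_basis bv
    exact Finite.of_injective (Sum.inr : _ → ι ⊕ _) Sum.inr_injective
  have hcard : Nat.card (Module.Basis.sumExtendIndex hu) = Nat.card (Module.Basis.sumExtendIndex hv) := by
    have h1 := Module.finrank_eq_nat_card_basis bu
    have h2 := Module.finrank_eq_nat_card_basis bv
    rw [Nat.card_sum] at h1 h2
    omega
  let e : Module.Basis.sumExtendIndex hu ≃ Module.Basis.sumExtendIndex hv := (Finite.equivFin _).trans ((finCongr hcard).trans (Finite.equivFin _).symm)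
  refine ⟨bu.equiv bv (Equiv.sumCongr (Equiv.refl ι) e), fun i => ?_⟩
  have h1 : bu (Sum.inl i) = u i := by
    simp only [bu, Module.Basis.sumExtend, Module.Basis.coe_reindex, Function.comp, Module.Basis.coe_extend]
    rfl
  have h2 : bv (Sum.inl i) = v i := by
    simp only [bv, Module.Basis.sumExtend, Module.Basis.coe_reindex, Function.comp, Module.Basis.coe_extend]
    rfl
  rw [← h1, Module.Basis.equiv_apply]
  simpa using h2

end CfsgLib.Lead
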