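import Cfsg.Agent.Lib.Char.Diag
import Cfsg.Agent.Lib.Char.Integrality
import Mathlib

set_option autoImplicit false

namespace CfsgLib.Lead

open Module

/-- Frobenius in the ring of algebraic integers: sum of integral numbers. -/
theorem sum_pow_prime_pow_integral {ι : Type*} (s : Finset ι) (f : ι → ℂ) (hf : ∀ i, IsIntegral ℤ (f i))
    (p j : ℕ) (hp : p.Prime) :
    ∃ r : ℂ, IsIntegral ℤ r ∧ (∑ i ∈ s, f i) ^ (p ^ j) = ∑ i ∈ s, (f i) ^ (p ^ j) + p * r := by
  classical
  haveI : Fact p.Prime := ⟨hp⟩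
  induction s using Finset.induction_on with
  | empty =>
    refine ⟨0, isIntegral_zero, ?_⟩
    simp [zero_pow (pow_pos hp.pos j).ne']
  | insert a s ha ih =>
    obtain ⟨r, hr, hs⟩ := ih
    have hsint : IsIntegral ℤ (∑ i ∈ s, f i) := IsIntegral.sum _ (fun i _ => hf i)
    -- work in the integral closure
    let R := integralClosure ℤ ℂ
    let x : R := ⟨f a, hf a⟩
    let y : R := ⟨∑ i ∈ s, f i, hsint⟩
    obtain ⟨t, ht⟩ := exists_add_pow_prime_pow_eq hp x y j
    have ht' : (f a + ∑ i ∈ s, f i) ^ (p ^ j) = (f a) ^ (p ^ j) + (∑ i ∈ s, f i) ^ (p ^ j) + (p * f a * ∑ i ∈ s, f i) * (t : ℂ) := by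
      have := congrArg (fun z : R => (z : ℂ)) ht
      simpa [x, y] using this
    refine ⟨f a * (∑ i ∈ s, f i) * t + r, IsIntegral.add (IsIntegral.mul (IsIntegral.mul (hf a) hsint) t.2) hr, ?_⟩
    rw [Finset.sum_insert ha, Finset.sum_insert ha, ht', hs]
    ring

variable {G : Type*} [Group G] [Finite G] {V : Type*} [AddCommGroup V] [Module ℂ V] [FiniteDimensional ℂ V]

/-- eigenvalues for element of known order. -/
theorem rep_eigen_order (ρ : Representation ℂ G V) (g : G) :
    ∃ (m : ℕ) (b : Basis (Fin m) ℂ V) (μ : Fin m → ℂ),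
      (∀ i, ρ g (b i) = μ i • b i) ∧ ∀ i, μ i ^ orderOf g = 1 :=
  CfsgLib.Char.exists_eigenbasis (ρ g) (orderOf_pos g) (CfsgLib.Char.rep_pow_orderOf_eq_one ρ g)

theorem character_one_eq (ρ : Representation ℂ G V) : ρ.character 1 = (finrank ℂ V : ℂ) := by
  simp [Representation.character]

end CfsgLib.Lead
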