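import Mathlib

/-! Two involutions in a finite group are conjugate, or commute with a common involution. -/

set_option autoImplicit false

namespace CfsgLib.Lead

variable {G : Type*} [Group G] [Finite G]

/-- Two involutions of a finite group are conjugate, or some involution commutes with both. -/
theorem isConj_or_exists_commuting_involution (a b : G) (ha : orderOf a = 2) (hb : orderOf b = 2) :
    IsConj a b ∨ ∃ w : G, orderOf w = 2 ∧ Commute w a ∧ Commute w b := by
  have haa : a * a = 1 := by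
    have := pow_orderOf_eq_one a
    rwa [ha, pow_two] at this
  have hbb : b * b = 1 := by
    have := pow_orderOf_eq_one b
    rwa [hb, pow_two] at this
  have hainv : a⁻¹ = a := by rw [inv_eq_iff_mul_eq_one]; exact haa
  have hbinv : b⁻¹ = b := by rw [inv_eq_iff_mul_eq_one]; exact hbb
  set r := a * b with hr
  have hrinv : r⁻¹ = b * a := by rw [hr, mul_inv_rev, hainv, hbinv]
  have hara : ∀ k : ℕ, a * r ^ k * a = (r ^ k)⁻¹ := by
    intro k
    have h1 : (a * r * a⁻¹) ^ k = a * r ^ k * a⁻¹ := conj_pow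
    rw [hainv] at h1
    have h2 : a * r * a = r⁻¹ := by
      rw [hrinv, hr, ← mul_assoc, haa, one_mul]
    rw [h2, inv_pow] at h1
    exact h1.symm
  have hbrb : ∀ k : ℕ, b * r ^ k * b = (r ^ k)⁻¹ := by
    intro k
    have h1 : (b * r * b⁻¹) ^ k = b * r ^ k * b⁻¹ := conj_pow
    rw [hbinv] at h1
    have h2 : b * r * b = r⁻¹ := by
      rw [hrinv, hr, mul_assoc, mul_assoc, hbb, mul_one]
    rw [h2, inv_pow] at h1
    exact h1.symm
  set n := orderOf r with hn
  have hnpos : 0 < n := orderOf_pos r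
  have hrn : r ^ n = 1 := pow_orderOf_eq_one r
  rcases Nat.even_or_odd' n with ⟨k, hk | hk⟩
  · right
    have hkpos : k ≠ 0 := by omega
    refine ⟨r ^ k, ?_, ?_, ?_⟩
    · rw [orderOf_pow_of_dvd hkpos ⟨2, by rw [← hn, hk]; ring⟩, ← hn, hk]
      exact Nat.mul_div_cancel 2 (Nat.pos_of_ne_zero hkpos)
    · have h2k : (r ^ k)⁻¹ = r ^ k := by
        rw [inv_eq_iff_mul_eq_one, ← pow_add, ← two_mul, ← hk, hrn]
      have := hara k
      rw [h2k] at this
      show r ^ k * a = a * r ^ k
      calc r ^ k * a = (a * r ^ k * a) * a := by rw [this]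
        _ = a * r ^ k := by rw [mul_assoc, haa, mul_one]
    · have h2k : (r ^ k)⁻¹ = r ^ k := by
        rw [inv_eq_iff_mul_eq_one, ← pow_add, ← two_mul, ← hk, hrn]
      have := hbrb k
      rw [h2k] at this
      show r ^ k * b = b * r ^ k
      calc r ^ k * b = (b * r ^ k * b) * b := by rw [this]
        _ = b * r ^ k := by rw [mul_assoc, hbb, mul_one]
  · left
    rw [isConj_iff]
    refine ⟨r ^ k, ?_⟩
    -- r^k a r^{-k} = r^{2k} a = r⁻¹ a = b
    have h1 : r ^ k * a = a * (r ^ k)⁻¹ := by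
      have := hara k
      calc r ^ k * a = a * (a * r ^ k * a) := by
            simp only [← mul_assoc, haa, one_mul]
        _ = a * (r ^ k)⁻¹ := by rw [this]
    have h2 : r ^ (2 * k) = r⁻¹ := by
      rw [eq_inv_iff_mul_eq_one, ← pow_succ, ← hk, hrn]
    have h3 : (r ^ k)⁻¹ * (r ^ k)⁻¹ = r := by
      rw [← mul_inv_rev, ← pow_add, ← two_mul, h2, inv_inv]
    calc r ^ k * a * (r ^ k)⁻¹ = a * (r ^ k)⁻¹ * (r ^ k)⁻¹ := by rw [h1]
      _ = a * r := by rw [mul_assoc, h3]
      _ = b := by rw [hr, ← mul_assoc, haa, one_mul]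

end CfsgLib.Lead
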